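import Cfsg.Agent.H503.El.Struct2
import Cfsg.Agent.H503.El.Fix2

/-!
# Abelian regular subgroups (S3561): `q`-groups with a fixed point free automorphism of prime order (helper503)
-/

set_option autoImplicit false

namespace Cfsg.Agent.H503.BG

open Subgroup Cfsg.Agent.H503.El

/-- a normal `q`-subgroup on which `x` acts fixed point freely is abelian, by counting -/
theorem comm_of_fpf {L : Type*} [Group L] [Finite L] (A : Subgroup L) [A.Normal] {p q k : ℕ} (hp : p.Prime)
    (hq : q.Prime) (hA : Nat.card A = q ^ k) (x : L) (hx : orderOf x = p) (hfix : ∀ a ∈ A, x * a = a * x → a = 1)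
    (hmod : ∀ j < k, q ^ j ≡ 1 [MOD p] → j = 0) : ∀ a ∈ A, ∀ b ∈ A, a * b = b * a := by
  classical
  haveI : Fact q.Prime := ⟨hq⟩
  have hApg : IsPGroup q A := IsPGroup.of_card hA
  by_cases hk : k = 0
  · subst hk
    rw [pow_zero] at hA
    have h1 := Subgroup.card_eq_one.1 hA
    subst h1
    intro a ha b hb
    rw [Subgroup.mem_bot.1 ha, Subgroup.mem_bot.1 hb]
  haveI hnt : Nontrivial A := by
    rw [← Finite.one_lt_card_iff_nontrivial, hA]
    exact Nat.one_lt_pow hk hq.one_lt
  set C : Subgroup L := ⁅A, A⁆ with hC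
  have hCA : C ≤ A := Subgroup.commutator_le_left A A
  haveI hCn : C.Normal := Subgroup.commutator_normal A A
  -- `C < A`
  have hne : C ≠ A := by
    intro h
    haveI : Group.IsNilpotent A := hApg.isNilpotent
    have h1 := IsSolvable.commutator_lt_top_of_nontrivial A
    apply h1.ne
    rw [commutator_def]
    apply Subgroup.map_injective A.subtype_injective
    rw [Subgroup.map_commutator, ← MonoidHom.range_eq_map, Subgroup.range_subtype, ← hC, h]
  obtain ⟨j, hj, hjc⟩ := (Nat.dvd_prime_pow hq).1 (hA ▸ Subgroup.card_dvd_of_le hCA)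
  have hjk : j < k := by
    refine lt_of_le_of_ne hj fun h => hne ?_
    exact Subgroup.eq_of_le_of_card_ge hCA (by rw [hA, hjc, h])
  have h1 := Fix.card_mod (S := ConjAct L) (α := L) hp (x := ConjAct.toConjAct x)
    (by rw [← hx]; exact orderOf_injective (ConjAct.toConjAct (G := L)).toMonoidHom (ConjAct.toConjAct).injective x)
    (C : Set L) (fun a ha => by
      show x * a * x⁻¹ ∈ C
      exact Subgroup.Normal.conj_mem inferInstance a ha x)
  have h2 : Nat.card {a : L // a ∈ (C : Set L) ∧ ConjAct.toConjAct x • a = a} = 1 := by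
    rw [Nat.card_eq_one_iff_unique]
    constructor
    · constructor
      rintro ⟨a, ha, ha'⟩ ⟨b, hb, hb'⟩
      have key : ∀ c : L, c ∈ (C : Set L) → ConjAct.toConjAct x • c = c → c = 1 := by
        intro c hc hc'
        apply hfix c (hCA hc)
        have h3 : x * c * x⁻¹ = c := hc'
        calc x * c = (x * c * x⁻¹) * x := by group
          _ = c * x := by rw [h3]
      apply Subtype.ext
      show a = b
      rw [key a ha ha', key b hb hb']
    · exact ⟨⟨1, C.one_mem, by
        show x * 1 * x⁻¹ = 1
        group⟩⟩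
  rw [h2] at h1
  have h3 : Nat.card (C : Set L) = q ^ j := hjc
  rw [h3] at h1
  have h4 := hmod j hjk h1
  rw [h4, pow_zero] at hjc
  have h5 : C = ⊥ := Subgroup.card_eq_one.1 hjc
  intro a ha b hb
  have h6 : A ≤ centralizer (A : Set L) := Subgroup.commutator_eq_bot_iff_le_centralizer.1 h5
  exact (mem_centralizer_iff.1 (h6 ha) b hb).symm

end Cfsg.Agent.H503.BG
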